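import Cfsg.Agent.H858.VK

/-!
# Words for the enumeration over an element of order three in `J4` (Part III of S5580)

The environment `LJ` (newest first): `V9, …, V1` (0–8), `T3, T2, T1` (9–11), `C3, C2, C1` (12–14), `G⁻¹, G` (15, 16),
`Z0, Y0` (17, 18), the basis `q0, …, q10` of `2^11` (19–29), two auxiliary elements, `x, y, y⁻¹, t` (32–35).
`Y0` has order 3 (and lies in `phi M24`, cycle type `1^6 3^6`), `Z0` is the central involution of its centralizer,
`T1, T2, T3` are involutions inverting `Y0`, `C1, C2, C3` involutions of the centralizer of `Y0`,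
`⟨V i, Y0⟩` are the nine classes of `A4`.  (Data: tools/h878/jmw.json, written by tools/h878/genbase.py.)
-/

set_option autoImplicit false

open Cfsg

namespace Cfsg.Agent.H878.JM.Base

open Cfsg.Agent.Lib Cfsg.Agent.Lib.F2MatGroup
open Cfsg.Agent.J4.Rep112 Cfsg.Agent.J4.LowerData
open Cfsg.Agent.H858.VK

/-- further program -/
def slpA : List (List ℕ) := [
  [13, 15, 13, 15, 13, 14, 13, 15, 13, 14, 13, 15, 13, 14, 13, 14, 13, 15, 13, 15, 13, 15, 13, 14, 13, 14, 13, 14, 13, 15, 13, 15, 13, 15, 13, 15, 13, 14, 13, 14, 13, 15, 13, 15, 13, 15, 13, 14, 13, 15],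
  [1, 3, 6, 8],
  [5, 17, 15, 16, 15, 17, 15, 17, 15, 17, 15, 16, 18, 6, 9, 11, 12, 15, 16, 15, 16, 15, 16, 15, 17, 15, 17, 15, 16, 15, 16, 15, 17, 15, 16, 15, 16, 15, 16, 15, 17, 15, 16, 15, 17, 15, 17, 15, 16, 15, 17, 15, 16, 15, 16, 15, 17, 15, 17, 15, 17, 15, 18, 17, 15, 16, 15, 16, 15, 16, 15, 17, 15, 16, 15, 17, 15, 16, 3, 18, 17, 15, 16, 2],
  [3, 18, 16, 17, 19, 4, 18, 16, 17, 16, 18, 16, 17, 16, 18, 16, 18, 16, 18, 16, 17, 19, 16, 17, 16, 17, 16, 17, 16, 18, 16, 18, 16, 17, 16, 18, 16, 17, 16, 17, 16, 18, 16, 17, 16, 18, 16, 18, 16, 18, 16, 17, 16, 18, 16, 18, 16, 17, 16, 17, 16, 18, 16, 18, 16, 18, 16, 13, 12, 10, 7, 19, 18, 16, 17, 16, 17, 16, 17, 16, 18, 16, 17, 6],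
  [4, 5, 6, 7, 9, 10, 12, 13, 17, 18, 17, 19, 17, 18, 17, 19, 17, 18, 17, 18, 17, 18, 17, 18, 17, 19, 17, 18, 17, 18, 17, 18, 17, 19, 17, 18, 17, 18, 17, 19, 17, 19, 17, 19, 17, 18, 17, 18, 17, 18, 17, 18, 17, 19, 17, 18],
  [5, 7, 10, 12, 18, 19, 18, 20, 18, 20, 18, 19, 18, 19, 18, 20, 18, 19, 18, 20, 18, 19, 18, 20, 18, 19, 18, 20, 18, 20, 18, 19, 18, 20, 18, 19, 18, 20, 18, 19, 18, 19, 18, 20, 18, 19, 18, 19],
  [2, 19, 21, 19, 20, 19, 21, 19, 20, 19, 21, 19, 20, 19, 21, 19, 20, 19, 21, 19, 20, 19, 21, 19, 20, 3],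
  [7, 9, 12, 14, 20, 22, 20, 21, 20, 22, 20, 21, 20],
  [21, 23, 21, 22, 21, 23, 21, 22, 21],
  [15, 16, 17, 22, 23, 22, 24, 22, 24, 22, 24, 22, 24, 22, 23, 22, 24, 22, 24, 22, 23, 22, 24, 22, 23, 22, 24, 22, 23, 22, 23, 22, 24, 22, 23, 22, 23, 22],
  [12, 13, 16, 17, 18, 19],
  [11, 13, 14, 15, 16, 17, 20, 21],
  [25, 26, 25, 26, 25, 26, 25, 26, 25, 27, 25, 26, 25, 26, 25, 26, 25, 27, 25, 26, 25, 26, 25, 27, 25, 27, 25, 27, 25, 26, 25, 26, 25, 26, 25, 26, 25, 27, 25, 26, 25, 26, 25, 27, 25, 26, 25, 27],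
  [13, 15, 16, 17, 18, 19, 22, 23, 26, 27, 26, 27, 26, 27, 26, 27, 26, 28, 26, 27, 26, 27, 26, 27, 26, 28, 26, 27, 26, 27, 26, 28, 26, 28, 26, 28, 26, 27, 26, 27, 26, 27, 26, 27, 26, 28, 26, 27, 26, 27, 26, 28, 26, 27, 26, 28],
  [28, 27, 28, 27, 28, 27, 28, 27, 28, 27, 28, 27, 28, 27, 28, 27, 29, 27, 28, 27, 29, 27, 28, 27, 29, 27, 28, 27, 28, 27, 29, 27, 28, 27, 29, 27, 28, 27, 28, 27, 29, 27, 29, 27, 29, 27, 29, 27, 29],
  [18, 20, 23, 24, 25, 29, 28, 29, 28, 29, 28, 29, 28, 29, 28, 29, 28, 29, 28, 29, 28, 30, 28, 29, 28, 30, 28, 29, 28, 30, 28, 29, 28, 29, 28, 30, 28, 29, 28, 30, 28, 29, 28, 29, 28, 30, 28, 30, 28, 30, 28, 30, 28, 30],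
  [12, 17, 18, 13],
  [13, 18, 22, 23, 24, 14],
  [14, 18, 21, 24, 25, 31, 32, 31, 33, 31, 33, 31, 32, 31, 32, 31, 33, 31, 33, 31, 33, 31, 32, 31, 33, 31, 32, 31, 33, 31, 32, 31, 32, 31, 32, 31, 32, 31, 33, 31, 32, 31, 33, 31, 32, 31, 32, 31, 33, 31, 32, 31, 33, 31, 32, 31, 33, 15]]

/-- the program -/
def slpJ : List (List ℕ) := slpQ ++ slpA

/-- equations -/
def es : List (List ℕ × List ℕ) := [
  ([18, 18, 18], []),
  ([17, 17], []),
  ([16, 15], []),
  ([17, 18], [18, 17]),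
  ([15, 32, 34, 32, 33, 32, 34, 32, 33, 32, 34, 32, 33, 32, 34, 32, 33, 16], [18]),
  ([14, 14], []),
  ([14, 18], [18, 14]),
  ([14, 17], [17, 14]),
  ([13, 13], []),
  ([13, 18], [18, 13]),
  ([13, 17], [17, 13]),
  ([12, 12], []),
  ([12, 18], [18, 12]),
  ([12, 17], [17, 12]),
  ([11, 11], []),
  ([11, 18, 11, 18], []),
  ([11, 17], [17, 11]),
  ([10, 10], []),
  ([10, 18, 10, 18], []),
  ([10, 17], [17, 10]),
  ([9, 9], []),
  ([9, 18, 9, 18], []),
  ([9, 17], [17, 9]),
  ([8, 8], []),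
  ([8, 18, 8, 18, 8, 18], []),
  ([7, 7], []),
  ([7, 18, 7, 18, 7, 18], []),
  ([6, 6], []),
  ([6, 18, 6, 18, 6, 18], []),
  ([5, 5], []),
  ([5, 18, 5, 18, 5, 18], []),
  ([4, 4], []),
  ([4, 18, 4, 18, 4, 18], []),
  ([3, 3], []),
  ([3, 18, 3, 18, 3, 18], []),
  ([2, 2], []),
  ([2, 18, 2, 18, 2, 18], []),
  ([1, 1], []),
  ([1, 18, 1, 18, 1, 18], []),
  ([0, 0], []),
  ([0, 18, 0, 18, 0, 18], [])]

/-- inequations -/
def ns : List (List ℕ × List ℕ) := [
  ([18], []),
  ([17], []),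
  ([14], []),
  ([13], []),
  ([12], []),
  ([11], []),
  ([10], []),
  ([9], []),
  ([8], []),
  ([7], []),
  ([6], []),
  ([5], []),
  ([4], []),
  ([3], []),
  ([2], []),
  ([1], []),
  ([0], [])]

/-- the environment -/
noncomputable def LJ : List Cfsg.Spor.J4 := runG slpJ gens

theorem map_LJ : LJ.map rho = runG slpJ (gens.map rho) := by
  unfold LJ
  rw [runG_map]

theorem run_env {k : List ℕ → Bool} (h : run 112 slpJ codes k = true) :
    ∃ L', List.Forall₂ (Codes 112) (LJ.map rho) L' ∧ k L' = true := by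
  obtain ⟨L', h', hk⟩ := run_sound codes_gens h
  exact ⟨L', by rw [map_LJ]; exact h', hk⟩

theorem check : run 112 slpJ codes
    (fun L => cond (eqs 112 es L) (neqs 112 ns L) false) = true := by decide +kernel

theorem sound : (∀ p ∈ es, evG LJ p.1 = evG LJ p.2) ∧ (∀ p ∈ ns, evG LJ p.1 ≠ evG LJ p.2) := by
  obtain ⟨L', h'', hk⟩ := run_env check
  rcases hb : eqs 112 es L' with _ | _
  · rw [hb] at hk; exact absurd hk Bool.false_ne_true
  rw [hb] at hk
  have hc : neqs 112 ns L' = true := hk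
  refine ⟨fun p hp => ?_, fun p hp => ?_⟩
  · apply rho_injective
    rw [← evG_map, ← evG_map]
    exact eqs_sound h'' hb p hp
  · intro h0
    have h1 := congrArg rho h0
    rw [← evG_map, ← evG_map] at h1
    exact neqs_sound (by norm_num) h'' hc p hp h1

/-- element number 18 of `LJ` -/
noncomputable def y0 : Cfsg.Spor.J4 := getG LJ 18

/-- element number 17 of `LJ` -/
noncomputable def z0 : Cfsg.Spor.J4 := getG LJ 17

/-- element number 16 of `LJ` -/
noncomputable def g0 : Cfsg.Spor.J4 := getG LJ 16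

/-- element number 14 of `LJ` -/
noncomputable def c1 : Cfsg.Spor.J4 := getG LJ 14

/-- element number 13 of `LJ` -/
noncomputable def c2 : Cfsg.Spor.J4 := getG LJ 13

/-- element number 12 of `LJ` -/
noncomputable def c3 : Cfsg.Spor.J4 := getG LJ 12

/-- element number 11 of `LJ` -/
noncomputable def t1 : Cfsg.Spor.J4 := getG LJ 11

/-- element number 10 of `LJ` -/
noncomputable def t2 : Cfsg.Spor.J4 := getG LJ 10

/-- element number 9 of `LJ` -/
noncomputable def t3 : Cfsg.Spor.J4 := getG LJ 9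

/-- element number 8 of `LJ` -/
noncomputable def v1 : Cfsg.Spor.J4 := getG LJ 8

/-- element number 7 of `LJ` -/
noncomputable def v2 : Cfsg.Spor.J4 := getG LJ 7

/-- element number 6 of `LJ` -/
noncomputable def v3 : Cfsg.Spor.J4 := getG LJ 6

/-- element number 5 of `LJ` -/
noncomputable def v4 : Cfsg.Spor.J4 := getG LJ 5

/-- element number 4 of `LJ` -/
noncomputable def v5 : Cfsg.Spor.J4 := getG LJ 4

/-- element number 3 of `LJ` -/
noncomputable def v6 : Cfsg.Spor.J4 := getG LJ 3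

/-- element number 2 of `LJ` -/
noncomputable def v7 : Cfsg.Spor.J4 := getG LJ 2

/-- element number 1 of `LJ` -/
noncomputable def v8 : Cfsg.Spor.J4 := getG LJ 1

/-- element number 0 of `LJ` -/
noncomputable def v9 : Cfsg.Spor.J4 := getG LJ 0

theorem ev1 (i : ℕ) : evG LJ [i] = getG LJ i := by rw [evG_cons, evG_nil, mul_one]
theorem ev2 (i j : ℕ) : evG LJ [i, j] = getG LJ i * getG LJ j := by rw [evG_cons, ev1]

theorem y0_cube : y0 * (y0 * y0) = 1 := by
  have h := sound.1 ([18, 18, 18], []) (by decide)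
  simp only [evG_cons, evG_nil, mul_one] at h
  exact h

theorem z0_sq : z0 * z0 = 1 := by
  have h := sound.1 ([17, 17], []) (by decide)
  simp only [evG_cons, evG_nil, mul_one] at h
  exact h

theorem z0_y0 : z0 * y0 = y0 * z0 := by
  have h := sound.1 ([17, 18], [18, 17]) (by decide)
  simp only [evG_cons, evG_nil, mul_one] at h
  exact h

theorem c1_sq : c1 * c1 = 1 := by
  have h := sound.1 ([14, 14], []) (by decide)
  simp only [evG_cons, evG_nil, mul_one] at h
  exact h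

theorem c1_y0 : c1 * y0 = y0 * c1 := by
  have h := sound.1 ([14, 18], [18, 14]) (by decide)
  simp only [evG_cons, evG_nil, mul_one] at h
  exact h

theorem c1_z0 : c1 * z0 = z0 * c1 := by
  have h := sound.1 ([14, 17], [17, 14]) (by decide)
  simp only [evG_cons, evG_nil, mul_one] at h
  exact h

theorem c2_sq : c2 * c2 = 1 := by
  have h := sound.1 ([13, 13], []) (by decide)
  simp only [evG_cons, evG_nil, mul_one] at h
  exact h

theorem c2_y0 : c2 * y0 = y0 * c2 := by
  have h := sound.1 ([13, 18], [18, 13]) (by decide)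
  simp only [evG_cons, evG_nil, mul_one] at h
  exact h

theorem c2_z0 : c2 * z0 = z0 * c2 := by
  have h := sound.1 ([13, 17], [17, 13]) (by decide)
  simp only [evG_cons, evG_nil, mul_one] at h
  exact h

theorem c3_sq : c3 * c3 = 1 := by
  have h := sound.1 ([12, 12], []) (by decide)
  simp only [evG_cons, evG_nil, mul_one] at h
  exact h

theorem c3_y0 : c3 * y0 = y0 * c3 := by
  have h := sound.1 ([12, 18], [18, 12]) (by decide)
  simp only [evG_cons, evG_nil, mul_one] at h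
  exact h

theorem c3_z0 : c3 * z0 = z0 * c3 := by
  have h := sound.1 ([12, 17], [17, 12]) (by decide)
  simp only [evG_cons, evG_nil, mul_one] at h
  exact h

theorem t1_sq : t1 * t1 = 1 := by
  have h := sound.1 ([11, 11], []) (by decide)
  simp only [evG_cons, evG_nil, mul_one] at h
  exact h

theorem t1_inv : t1 * (y0 * (t1 * y0)) = 1 := by
  have h := sound.1 ([11, 18, 11, 18], []) (by decide)
  simp only [evG_cons, evG_nil, mul_one] at h
  exact h

theorem t1_z0 : t1 * z0 = z0 * t1 := by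
  have h := sound.1 ([11, 17], [17, 11]) (by decide)
  simp only [evG_cons, evG_nil, mul_one] at h
  exact h

theorem t2_sq : t2 * t2 = 1 := by
  have h := sound.1 ([10, 10], []) (by decide)
  simp only [evG_cons, evG_nil, mul_one] at h
  exact h

theorem t2_inv : t2 * (y0 * (t2 * y0)) = 1 := by
  have h := sound.1 ([10, 18, 10, 18], []) (by decide)
  simp only [evG_cons, evG_nil, mul_one] at h
  exact h

theorem t2_z0 : t2 * z0 = z0 * t2 := by
  have h := sound.1 ([10, 17], [17, 10]) (by decide)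
  simp only [evG_cons, evG_nil, mul_one] at h
  exact h

theorem t3_sq : t3 * t3 = 1 := by
  have h := sound.1 ([9, 9], []) (by decide)
  simp only [evG_cons, evG_nil, mul_one] at h
  exact h

theorem t3_inv : t3 * (y0 * (t3 * y0)) = 1 := by
  have h := sound.1 ([9, 18, 9, 18], []) (by decide)
  simp only [evG_cons, evG_nil, mul_one] at h
  exact h

theorem t3_z0 : t3 * z0 = z0 * t3 := by
  have h := sound.1 ([9, 17], [17, 9]) (by decide)
  simp only [evG_cons, evG_nil, mul_one] at h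
  exact h

theorem v1_sq : v1 * v1 = 1 := by
  have h := sound.1 ([8, 8], []) (by decide)
  simp only [evG_cons, evG_nil, mul_one] at h
  exact h

theorem v1_y0 : v1 * (y0 * (v1 * (y0 * (v1 * y0)))) = 1 := by
  have h := sound.1 ([8, 18, 8, 18, 8, 18], []) (by decide)
  simp only [evG_cons, evG_nil, mul_one] at h
  exact h

theorem v2_sq : v2 * v2 = 1 := by
  have h := sound.1 ([7, 7], []) (by decide)
  simp only [evG_cons, evG_nil, mul_one] at h
  exact h

theorem v2_y0 : v2 * (y0 * (v2 * (y0 * (v2 * y0)))) = 1 := by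
  have h := sound.1 ([7, 18, 7, 18, 7, 18], []) (by decide)
  simp only [evG_cons, evG_nil, mul_one] at h
  exact h

theorem v3_sq : v3 * v3 = 1 := by
  have h := sound.1 ([6, 6], []) (by decide)
  simp only [evG_cons, evG_nil, mul_one] at h
  exact h

theorem v3_y0 : v3 * (y0 * (v3 * (y0 * (v3 * y0)))) = 1 := by
  have h := sound.1 ([6, 18, 6, 18, 6, 18], []) (by decide)
  simp only [evG_cons, evG_nil, mul_one] at h
  exact h

theorem v4_sq : v4 * v4 = 1 := by
  have h := sound.1 ([5, 5], []) (by decide)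
  simp only [evG_cons, evG_nil, mul_one] at h
  exact h

theorem v4_y0 : v4 * (y0 * (v4 * (y0 * (v4 * y0)))) = 1 := by
  have h := sound.1 ([5, 18, 5, 18, 5, 18], []) (by decide)
  simp only [evG_cons, evG_nil, mul_one] at h
  exact h

theorem v5_sq : v5 * v5 = 1 := by
  have h := sound.1 ([4, 4], []) (by decide)
  simp only [evG_cons, evG_nil, mul_one] at h
  exact h

theorem v5_y0 : v5 * (y0 * (v5 * (y0 * (v5 * y0)))) = 1 := by
  have h := sound.1 ([4, 18, 4, 18, 4, 18], []) (by decide)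
  simp only [evG_cons, evG_nil, mul_one] at h
  exact h

theorem v6_sq : v6 * v6 = 1 := by
  have h := sound.1 ([3, 3], []) (by decide)
  simp only [evG_cons, evG_nil, mul_one] at h
  exact h

theorem v6_y0 : v6 * (y0 * (v6 * (y0 * (v6 * y0)))) = 1 := by
  have h := sound.1 ([3, 18, 3, 18, 3, 18], []) (by decide)
  simp only [evG_cons, evG_nil, mul_one] at h
  exact h

theorem v7_sq : v7 * v7 = 1 := by
  have h := sound.1 ([2, 2], []) (by decide)
  simp only [evG_cons, evG_nil, mul_one] at h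
  exact h

theorem v7_y0 : v7 * (y0 * (v7 * (y0 * (v7 * y0)))) = 1 := by
  have h := sound.1 ([2, 18, 2, 18, 2, 18], []) (by decide)
  simp only [evG_cons, evG_nil, mul_one] at h
  exact h

theorem v8_sq : v8 * v8 = 1 := by
  have h := sound.1 ([1, 1], []) (by decide)
  simp only [evG_cons, evG_nil, mul_one] at h
  exact h

theorem v8_y0 : v8 * (y0 * (v8 * (y0 * (v8 * y0)))) = 1 := by
  have h := sound.1 ([1, 18, 1, 18, 1, 18], []) (by decide)
  simp only [evG_cons, evG_nil, mul_one] at h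
  exact h

theorem v9_sq : v9 * v9 = 1 := by
  have h := sound.1 ([0, 0], []) (by decide)
  simp only [evG_cons, evG_nil, mul_one] at h
  exact h

theorem v9_y0 : v9 * (y0 * (v9 * (y0 * (v9 * y0)))) = 1 := by
  have h := sound.1 ([0, 18, 0, 18, 0, 18], []) (by decide)
  simp only [evG_cons, evG_nil, mul_one] at h
  exact h

theorem y0_ne : y0 ≠ 1 := by
  intro h; refine sound.2 ([18], []) (by decide) ?_; rw [ev1, evG_nil]; exact h

theorem z0_ne : z0 ≠ 1 := by
  intro h; refine sound.2 ([17], []) (by decide) ?_; rw [ev1, evG_nil]; exact h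

theorem c1_ne : c1 ≠ 1 := by
  intro h; refine sound.2 ([14], []) (by decide) ?_; rw [ev1, evG_nil]; exact h

theorem c2_ne : c2 ≠ 1 := by
  intro h; refine sound.2 ([13], []) (by decide) ?_; rw [ev1, evG_nil]; exact h

theorem c3_ne : c3 ≠ 1 := by
  intro h; refine sound.2 ([12], []) (by decide) ?_; rw [ev1, evG_nil]; exact h

theorem t1_ne : t1 ≠ 1 := by
  intro h; refine sound.2 ([11], []) (by decide) ?_; rw [ev1, evG_nil]; exact h

theorem t2_ne : t2 ≠ 1 := by
  intro h; refine sound.2 ([10], []) (by decide) ?_; rw [ev1, evG_nil]; exact h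

theorem t3_ne : t3 ≠ 1 := by
  intro h; refine sound.2 ([9], []) (by decide) ?_; rw [ev1, evG_nil]; exact h

theorem v1_ne : v1 ≠ 1 := by
  intro h; refine sound.2 ([8], []) (by decide) ?_; rw [ev1, evG_nil]; exact h

theorem v2_ne : v2 ≠ 1 := by
  intro h; refine sound.2 ([7], []) (by decide) ?_; rw [ev1, evG_nil]; exact h

theorem v3_ne : v3 ≠ 1 := by
  intro h; refine sound.2 ([6], []) (by decide) ?_; rw [ev1, evG_nil]; exact h

theorem v4_ne : v4 ≠ 1 := by
  intro h; refine sound.2 ([5], []) (by decide) ?_; rw [ev1, evG_nil]; exact h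

theorem v5_ne : v5 ≠ 1 := by
  intro h; refine sound.2 ([4], []) (by decide) ?_; rw [ev1, evG_nil]; exact h

theorem v6_ne : v6 ≠ 1 := by
  intro h; refine sound.2 ([3], []) (by decide) ?_; rw [ev1, evG_nil]; exact h

theorem v7_ne : v7 ≠ 1 := by
  intro h; refine sound.2 ([2], []) (by decide) ?_; rw [ev1, evG_nil]; exact h

theorem v8_ne : v8 ≠ 1 := by
  intro h; refine sound.2 ([1], []) (by decide) ?_; rw [ev1, evG_nil]; exact h

theorem v9_ne : v9 ≠ 1 := by
  intro h; refine sound.2 ([0], []) (by decide) ?_; rw [ev1, evG_nil]; exact h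

end Cfsg.Agent.H878.JM.Base
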