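import Cfsg.Agent.H878.JM.Elts
import Cfsg.Agent.H878.JM.FiveTest

/-!
# The solutions of `(v i * t) ^ 3 = 1` are conjugates of the ten representatives (generated, tools/h878/genfive.py)

Environment `LF` (newest first): 154 new elements, then `LE`.
`gnI` : generators of a subgroup of the centralizer of `(y0, v i)` (with inverses), `trI` : tree of conjugates
(child, parent, `d`, `d⁻¹`), `rtI` : roots, `soI` : the solutions, in the order of their keys `ksI`.
-/

set_option autoImplicit false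
set_option maxRecDepth 100000

open Cfsg

namespace Cfsg.Agent.H878.JM.FiveTree

open Cfsg.Agent.Lib Cfsg.Agent.Lib.F2MatGroup
open Cfsg.Agent.J4.Rep112
open Cfsg.Agent.H858.VK
open Cfsg.Agent.H878.JM.Base Cfsg.Agent.H878.JM.Elts Cfsg.Agent.H878.JM.FiveTest
open Cfsg.Agent.H111.JM.Eng Cfsg.Agent.H111.JM.Env

/-- the program -/
def slpF : List (List ℕ) := [
  [263, 235, 263],
  [261, 236, 261],
  [262, 1, 262],
  [264, 1, 265],
  [266, 2, 265],
  [266, 2, 267],
  [268, 3, 267],
  [266, 235, 266],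
  [266, 236, 266],
  [266, 237, 266],
  [268, 2, 268],
  [268, 3, 268],
  [269, 3, 269],
  [270, 2, 270],
  [270, 235, 270],
  [268, 236, 269],
  [270, 237, 269],
  [270, 2, 271],
  [272, 3, 271],
  [275, 3, 275],
  [275, 4, 275],
  [277, 4, 277],
  [277, 5, 277],
  [279, 5, 279],
  [279, 6, 279],
  [281, 6, 281],
  [281, 7, 281],
  [282, 7, 282],
  [281, 8, 282],
  [283, 9, 282],
  [283, 9, 284],
  [285, 10, 284],
  [287, 10, 287],
  [286, 11, 287],
  [288, 12, 287],
  [288, 12, 289],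
  [290, 13, 289],
  [290, 13, 291],
  [292, 14, 291],
  [292, 14, 293],
  [295, 14, 295],
  [294, 15, 295],
  [296, 16, 295],
  [296, 15, 297],
  [298, 16, 297],
  [301, 16, 301],
  [302, 15, 302],
  [303, 15, 303],
  [301, 15, 302],
  [304, 15, 304],
  [306, 15, 306],
  [307, 14, 307],
  [308, 14, 308],
  [309, 13, 309],
  [307, 13, 308],
  [309, 14, 308],
  [311, 14, 311],
  [313, 14, 313],
  [313, 15, 313],
  [315, 14, 315],
  [313, 12, 314],
  [313, 270, 313],
  [312, 271, 312],
  [313, 1, 313],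
  [316, 1, 316],
  [316, 2, 316],
  [318, 2, 318],
  [318, 3, 318],
  [319, 3, 319],
  [319, 4, 319],
  [320, 4, 320],
  [322, 4, 322],
  [322, 5, 322],
  [323, 5, 323],
  [324, 5, 324],
  [327, 5, 327],
  [327, 6, 327],
  [329, 6, 329],
  [329, 7, 329],
  [329, 7, 329],
  [332, 7, 332],
  [332, 8, 332],
  [334, 8, 334],
  [334, 9, 334],
  [335, 8, 335],
  [335, 9, 335],
  [336, 9, 336],
  [338, 9, 338],
  [338, 10, 338],
  [339, 10, 339],
  [341, 9, 341],
  [341, 10, 341],
  [342, 10, 342],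
  [344, 10, 344],
  [344, 11, 344],
  [345, 11, 345],
  [346, 11, 346],
  [347, 9, 347],
  [348, 7, 348],
  [349, 5, 349],
  [352, 3, 352],
  [352, 4, 352],
  [354, 3, 354],
  [354, 4, 354],
  [354, 3, 354],
  [355, 3, 355],
  [356, 3, 356],
  [357, 3, 357],
  [356, 314, 357],
  [358, 315, 357],
  [357, 316, 357],
  [358, 2, 358],
  [359, 2, 359],
  [361, 2, 362],
  [363, 3, 362],
  [363, 3, 364],
  [365, 4, 364],
  [365, 4, 366],
  [367, 5, 366],
  [366, 5, 366],
  [367, 5, 367],
  [368, 5, 368],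
  [369, 5, 369],
  [370, 5, 370],
  [371, 5, 371],
  [373, 5, 374],
  [375, 5, 374],
  [375, 5, 376],
  [375, 2, 375],
  [376, 2, 376],
  [377, 2, 377],
  [376, 315, 377],
  [378, 316, 377],
  [376, 317, 377],
  [378, 318, 377],
  [378, 3, 379],
  [380, 4, 379],
  [380, 4, 381],
  [382, 5, 381],
  [384, 5, 385],
  [386, 6, 385],
  [386, 6, 387],
  [388, 7, 387],
  [388, 7, 389],
  [390, 8, 389],
  [390, 8, 391],
  [392, 9, 391],
  [392, 9, 393],
  [394, 10, 393],
  [394, 10, 395],
  [396, 11, 395],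
  [394, 10, 395],
  [396, 10, 395],
  [397, 7, 396]]

/-- generators -/
def gn3 : List (ℕ × ℕ) := [(417, 417), (416, 415), (415, 416), (414, 414)]

/-- tree -/
def tr3 : List (ℕ × ℕ × ℕ × ℕ) := [(153, 389, 417, 417), (152, 389, 414, 414), (151, 153, 414, 414), (150, 152, 416, 415), (149, 152, 415, 416), (148, 151, 416, 415), (147, 151, 415, 416)]

/-- roots -/
def rt3 : List ℕ := [389]

/-- solutions -/
def so3 : List ℕ := [150, 148, 151, 147, 389, 153, 149, 152]

/-- generators -/
def gn4 : List (ℕ × ℕ) := [(413, 413), (412, 412), (411, 411)]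

/-- tree -/
def tr4 : List (ℕ × ℕ × ℕ × ℕ) := [(146, 382, 413, 413), (145, 382, 412, 412), (144, 382, 411, 411), (143, 146, 412, 412), (142, 146, 411, 411), (141, 145, 411, 411), (140, 143, 411, 411)]

/-- roots -/
def rt4 : List ℕ := [382]

/-- solutions -/
def so4 : List ℕ := [143, 144, 145, 142, 141, 146, 140, 382]

/-- generators -/
def gn5 : List (ℕ × ℕ) := [(410, 410), (409, 409), (408, 407), (407, 408)]

/-- tree -/
def tr5 : List (ℕ × ℕ × ℕ × ℕ) := [(139, 375, 410, 410), (138, 375, 408, 407), (137, 375, 407, 408), (136, 139, 408, 407), (135, 139, 407, 408), (134, 138, 410, 410), (133, 138, 409, 409), (132, 137, 410, 410), (131, 137, 409, 409), (130, 136, 410, 410), (129, 136, 409, 409), (128, 135, 410, 410), (127, 135, 409, 409), (126, 134, 409, 409), (125, 134, 408, 407), (124, 134, 407, 408), (123, 133, 408, 407), (122, 133, 407, 408), (121, 132, 409, 409), (120, 132, 408, 407), (119, 132, 407, 408), (118, 131, 408, 407), (117, 131, 407, 408), (116, 130,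 408, 407), (115, 130, 407, 408), (114, 129, 408, 407), (113, 128, 409, 409), (112, 128, 408, 407), (111, 128, 407, 408), (110, 126, 408, 407), (109, 126, 407, 408), (108, 125, 410, 410), (107, 123, 410, 410), (106, 122, 410, 410), (105, 121, 408, 407), (104, 120, 409, 409), (103, 119, 410, 410), (102, 117, 410, 410), (101, 116, 410, 410), (100, 114, 410, 410), (99, 113, 408, 407), (98, 113, 407, 408), (97, 112, 409, 409), (96, 111, 410, 410), (95, 111, 409, 409), (94, 109, 410, 410), (93, 106, 408, 407)]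

/-- roots -/
def rt5 : List ℕ := [375]

/-- solutions -/
def so5 : List ℕ := [128, 375, 102, 124, 122, 117, 105, 114, 126, 93, 123, 113, 94, 118, 115, 125, 132, 107, 110, 139, 112, 134, 129, 95, 97, 138, 119, 136, 108, 135, 96, 133, 106, 116, 111, 131, 121, 100, 99, 130, 127, 137, 104, 109, 101, 120, 103, 98]

/-- generators -/
def gn6 : List (ℕ × ℕ) := [(406, 406), (405, 405), (404, 404)]

/-- tree -/
def tr6 : List (ℕ × ℕ × ℕ × ℕ) := [(92, 363, 406, 406), (91, 363, 404, 404), (90, 92, 404, 404), (89, 91, 406, 406), (88, 91, 405, 405), (87, 90, 406, 406), (86, 90, 405, 405), (85, 89, 405, 405), (84, 89, 404, 404), (83, 88, 404, 404), (82, 87, 405, 405), (81, 87, 404, 404), (80, 86, 404, 404), (79, 85, 404, 404), (78, 84, 406, 406), (77, 84, 405, 405), (76, 83, 406, 406), (75, 83, 405, 405), (74, 82, 404, 404), (73, 81, 406, 406), (72, 81, 405, 405), (71, 80, 406, 406), (70, 80, 405, 405), (69, 78, 405, 405), (68, 78, 404, 404), (67, 77, 404, 404), (66, 76, 405, 405),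 (65, 76, 404, 404), (64, 75, 404, 404), (63, 73, 405, 405), (62, 73, 404, 404), (61, 72, 404, 404), (60, 71, 405, 405), (59, 71, 404, 404), (58, 70, 404, 404), (57, 69, 404, 404), (56, 66, 404, 404), (55, 63, 404, 404), (54, 60, 404, 404), (53, 57, 406, 406), (52, 57, 405, 405), (51, 55, 406, 406), (50, 55, 405, 405), (49, 53, 404, 404), (48, 52, 404, 404), (47, 51, 404, 404), (46, 50, 404, 404)]

/-- roots -/
def rt6 : List ℕ := [363]

/-- solutions -/
def so6 : List ℕ := [84, 78, 64, 58, 46, 63, 70, 65, 59, 89, 67, 79, 88, 90, 54, 69, 57, 87, 76, 62, 82, 91, 47, 72, 61, 48, 81, 53, 66, 92, 80, 71, 363, 74, 55, 50, 68, 73, 51, 52, 75, 86, 49, 83, 85, 60, 77, 56]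

/-- generators -/
def gn7 : List (ℕ × ℕ) := [(403, 402), (402, 403), (401, 401)]

/-- tree -/
def tr7 : List (ℕ × ℕ × ℕ × ℕ) := [(45, 360, 403, 402), (44, 360, 402, 403), (43, 360, 401, 401), (42, 45, 401, 401), (41, 44, 401, 401), (40, 43, 403, 402), (39, 43, 402, 403), (38, 42, 403, 402), (37, 42, 402, 403), (36, 41, 403, 402), (35, 41, 402, 403), (34, 40, 401, 401), (33, 39, 401, 401), (32, 38, 401, 401), (31, 37, 401, 401), (30, 36, 401, 401), (29, 35, 401, 401), (28, 34, 403, 402), (27, 33, 402, 403), (26, 32, 403, 402), (25, 28, 401, 401), (24, 27, 401, 401), (23, 26, 401, 401)]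

/-- roots -/
def rt7 : List ℕ := [360, 358]

/-- solutions -/
def so7 : List ℕ := [39, 45, 37, 23, 24, 43, 44, 358, 36, 32, 360, 25, 26, 40, 35, 38, 33, 42, 41, 34, 28, 30, 31, 29, 27]

/-- generators -/
def gn8 : List (ℕ × ℕ) := []

/-- tree -/
def tr8 : List (ℕ × ℕ × ℕ × ℕ) := []

/-- roots -/
def rt8 : List ℕ := [347]

/-- solutions -/
def so8 : List ℕ := [347]

/-- generators -/
def gn9 : List (ℕ × ℕ) := [(400, 399), (399, 400), (398, 397), (397, 398)]

/-- tree -/
def tr9 : List (ℕ × ℕ × ℕ × ℕ) := [(22, 338, 400, 399), (21, 338, 399, 400), (20, 338, 398, 397), (19, 338, 397, 398), (18, 22, 398, 397), (17, 22, 397, 398), (16, 21, 398, 397), (15, 21, 397, 398), (14, 20, 400, 399), (13, 20, 399, 400), (12, 19, 400, 399), (11, 19, 399, 400), (10, 18, 400, 399), (9, 18, 399, 400), (8, 17, 400, 399), (7, 17, 399, 400), (6, 16, 400, 399), (5, 16, 399, 400), (4, 15, 400, 399), (3, 15, 399, 400), (2, 13, 398, 397), (1, 12, 397, 398), (0, 8, 397, 398)]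

/-- roots -/
def rt9 : List ℕ := [338, 333, 347]

/-- solutions -/
def so9 : List ℕ := [7, 0, 13, 12, 17, 338, 15, 1, 347, 11, 22, 19, 333, 10, 14, 4, 20, 3, 2, 5, 6, 8, 21, 16, 9, 18]

/-- the equations of a tree -/
def esT (T : List (ℕ × ℕ × ℕ × ℕ)) : List (List ℕ × List ℕ) := T.map fun e => ([e.1], [e.2.2.2, e.2.1, e.2.2.1])

/-- the equations of the generators -/
def esG (v : ℕ) (G : List (ℕ × ℕ)) : List (List ℕ × List ℕ) :=
  G.flatMap fun p => [([p.2, p.1], []), ([p.1, 436], [436, p.1]), ([p.1, v], [v, p.1])]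

/-- all equations -/
def esF : List (List ℕ × List ℕ) :=
  esT tr3 ++ (esT tr4 ++ (esT tr5 ++ (esT tr6 ++ (esT tr7 ++ (esT tr8 ++ (esT tr9 ++
  (esG 424 gn3 ++ (esG 423 gn4 ++ (esG 422 gn5 ++ (esG 421 gn6 ++ (esG 420 gn7 ++ (esG 419 gn8 ++ esG 418 gn9))))))))))))

/-- the keys of elements -/
def keysOf (L : List ℕ) (I K : List ℕ) : Bool :=
  List.rec (motive := fun _ => List ℕ → Bool) (fun K => List.rec true (fun _ _ _ => false) K)
    (fun i _ ih K => List.rec false (fun k K' _ =>
      cond (Nat.beq (key 12159 24 (get (F2Mat.one 112) L i)) k) (ih K') false) K) I K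

theorem keysOf_sound {L : List ℕ} {I K : List ℕ} (h : keysOf L I K = true) :
    List.Forall₂ (fun i k => key 12159 24 (get (F2Mat.one 112) L i) = k) I K := by
  induction I generalizing K with
  | nil =>
    rcases K with _ | ⟨k, K⟩
    · exact .nil
    · exact absurd h Bool.false_ne_true
  | cons i I ih =>
    rcases K with _ | ⟨k, K⟩
    · exact absurd h Bool.false_ne_true
    · have h1 : cond (Nat.beq (key 12159 24 (get (F2Mat.one 112) L i)) k) (keysOf L I K) false = true := h
      rcases hb : Nat.beq (key 12159 24 (get (F2Mat.one 112) L i)) k with _ | _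
      · rw [hb] at h1; exact absurd h1 Bool.false_ne_true
      · rw [hb] at h1
        exact .cons (Nat.eq_of_beq_eq_true hb) (ih h1)

/-- the environment -/
noncomputable def LF : List Cfsg.Spor.J4 := runG slpF LE

theorem slpF_length : slpF.length = 154 := by decide +kernel

theorem getF_old (k : ℕ) : getG LF (154 + k) = getG LE k := getG_runG_old slpF LE slpF_length k

theorem map_LF : LF.map rho = runG (slpJ ++ slpE ++ slpF) (gens.map rho) := by
  rw [Cfsg.Agent.J4.Classes.runG_append, ← map_LE]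
  unfold LF
  rw [runG_map]

theorem check : run 112 (slpJ ++ slpE ++ slpF) codes
    (fun L => an (eqs 112 esF L) (an (keysOf L so3 ks3) (an (keysOf L so4 ks4) (an (keysOf L so5 ks5)
      (an (keysOf L so6 ks6) (an (keysOf L so7 ks7) (an (keysOf L so8 ks8) (keysOf L so9 ks9)))))))) = true := by
  decide +kernel


theorem sound : (∀ p ∈ esF, evG LF p.1 = evG LF p.2) ∧ ∃ L', List.Forall₂ (Codes 112) (LF.map rho) L' ∧
    keysOf L' so3 ks3 = true ∧ keysOf L' so4 ks4 = true ∧ keysOf L' so5 ks5 = true ∧ keysOf L' so6 ks6 = true ∧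
    keysOf L' so7 ks7 = true ∧ keysOf L' so8 ks8 = true ∧ keysOf L' so9 ks9 = true := by
  obtain ⟨L', h', hk⟩ := run_sound codes_gens check
  rw [← map_LF] at h'
  obtain ⟨hb, hk⟩ := an_eq hk
  obtain ⟨h3, hk⟩ := an_eq hk
  obtain ⟨h4, hk⟩ := an_eq hk
  obtain ⟨h5, hk⟩ := an_eq hk
  obtain ⟨h6, hk⟩ := an_eq hk
  obtain ⟨h7, hk⟩ := an_eq hk
  obtain ⟨h8, h9⟩ := an_eq hk
  refine ⟨fun p hp => ?_, L', h', h3, h4, h5, h6, h7, h8, h9⟩
  apply rho_injective
  rw [← evG_map, ← evG_map]
  exact eqs_sound h' hb p hp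

/-- growth of the set of good numbers -/
def grow : List ℕ → List (ℕ × ℕ × ℕ × ℕ) → List ℕ
  | R, [] => R
  | R, e :: T => if R.contains e.2.1 then grow (e.1 :: R) T else grow R T

theorem tree {G : Type*} [Group G] {L : List G} {y v : G} {P : G → Prop} {gn : List (ℕ × ℕ)}
    (hg : ∀ p ∈ gn, getG L p.2 * getG L p.1 = 1 ∧ getG L p.1 * y = y * getG L p.1 ∧
      getG L p.1 * v = v * getG L p.1)
    {T : List (ℕ × ℕ × ℕ × ℕ)} (hT : ∀ e ∈ T, (e.2.2.1, e.2.2.2) ∈ gn ∧
      getG L e.1 = getG L e.2.2.2 * (getG L e.2.1 * getG L e.2.2.1)) {R : List ℕ}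
    (hR : ∀ k ∈ R, ∃ c, c * y = y * c ∧ c * v = v * c ∧ P (c * getG L k * c⁻¹)) :
    ∀ k ∈ grow R T, ∃ c, c * y = y * c ∧ c * v = v * c ∧ P (c * getG L k * c⁻¹) := by
  induction T generalizing R with
  | nil => exact hR
  | cons e T ih =>
    intro k hk
    unfold grow at hk
    split_ifs at hk with h
    · refine ih (fun e he => hT e (List.mem_cons_of_mem _ he)) ?_ k hk
      intro j hj
      rcases List.mem_cons.1 hj with rfl | hj
      · obtain ⟨h1, h2⟩ := hT e List.mem_cons_self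
        obtain ⟨h3, h4, h5⟩ := hg _ h1
        obtain ⟨c, hc1, hc2, hc3⟩ := hR _ (List.contains_iff_mem.1 h)
        simp only at h3 h4 h5
        have h6 : (getG L e.2.2.1)⁻¹ = getG L e.2.2.2 := inv_eq_of_mul_eq_one_left h3
        refine ⟨c * getG L e.2.2.1, ?_, ?_, ?_⟩
        · rw [mul_assoc, h4, ← mul_assoc, hc1, mul_assoc]
        · rw [mul_assoc, h5, ← mul_assoc, hc2, mul_assoc]
        · rw [h2, ← h6]
          have h7 : c * getG L e.2.2.1 * ((getG L e.2.2.1)⁻¹ * (getG L e.2.1 * getG L e.2.2.1)) *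
              (c * getG L e.2.2.1)⁻¹ = c * getG L e.2.1 * c⁻¹ := by group
          rw [h7]
          exact hc3
      · exact hR j hj
    · exact ih (fun e he => hT e (List.mem_cons_of_mem _ he)) hR k hk

end Cfsg.Agent.H878.JM.FiveTree
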